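import Mathlib
import Cfsg.Agent.Lib.H2.PGrp

set_option autoImplicit false

/-! Groups in which nonabelian subgroups are self-normalizing: local structure. -/

namespace H2.CI

open Subgroup

/-- nonabelian subgroups are self-normalizing -/
def SN (G : Type*) [Group G] : Prop :=
  ∀ H : Subgroup G, (∃ a ∈ H, ∃ b ∈ H, a * b ≠ b * a) → ∀ g ∈ normalizer (H : Set G), g ∈ H

theorem SN.sub {G : Type*} [Group G] (h : SN G) (N : Subgroup G) : SN N := by
  rintro H ⟨a, ha, b, hb, hab⟩ g hg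
  have h1 := h (H.map N.subtype) ⟨a, mem_map_of_mem N.subtype ha, b, mem_map_of_mem N.subtype hb,
    fun h2 => hab (Subtype.ext h2)⟩ g (by
      rw [mem_normalizer_iff] at hg ⊢
      intro x
      constructor
      · rintro ⟨y, hy, rfl⟩
        exact ⟨g * y * g⁻¹, (hg y).1 hy, rfl⟩
      · rintro ⟨y, hy, hyx⟩
        refine ⟨g⁻¹ * y * g, ?_, ?_⟩
        · rw [SetLike.mem_coe, hg]
          have e : g * (g⁻¹ * y * g) * g⁻¹ = y := by group
          rw [e]; exact hy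
        · show (g : G)⁻¹ * (N.subtype y) * g = x
          rw [hyx]; group)
  obtain ⟨y, hy, hyx⟩ := h1
  have : y = g := Subtype.ext hyx
  rw [← this]; exact hy

theorem SN.normal {G : Type*} [Group G] (h : SN G) {M : Subgroup G} (hM : M.Normal)
    (hna : ∃ a ∈ M, ∃ b ∈ M, a * b ≠ b * a) (g : G) : g ∈ M :=
  h M hna g (by rw [normalizer_eq_top_iff.2 hM]; trivial)

/-- An element whose order is both a power of `p` and of `r ≠ p` is trivial -/
theorem eq_one_of_two {G : Type*} [Group G] {p r : ℕ} (hp : p.Prime) (hr : r.Prime) (hpr : r ≠ p)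
    {x : G} {i j : ℕ} (h1 : x ^ p ^ i = 1) (h2 : x ^ r ^ j = 1) : x = 1 := by
  have h3 : Nat.Coprime (p ^ i) (r ^ j) :=
    Nat.Coprime.pow _ _ ((Nat.coprime_primes hp hr).2 (Ne.symm hpr))
  have h4 : orderOf x ∣ 1 := by
    rw [← h3.gcd_eq_one]
    exact Nat.dvd_gcd (orderOf_dvd_of_pow_eq_one h1) (orderOf_dvd_of_pow_eq_one h2)
  exact orderOf_eq_one_iff.1 (Nat.dvd_one.1 h4)

section

variable {N : Type*} [Group N] [Finite N] {p r : ℕ} [hp : Fact p.Prime] [hr : Fact r.Prime]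

/-- The zpowers of an `r`-element acting nontrivially on a normal abelian `p`-subgroup is a Sylow
`r`-subgroup, and there is a normal abelian `r`-complement. -/
theorem lemA (h : SN N) (Q : Subgroup N) [hQn : Q.Normal] (hQp : IsPGroup p Q) (hrp : r ≠ p) (g : N)
    (hg : ∃ k : ℕ, g ^ r ^ k = 1) (hgQ : ∃ a ∈ Q, g * a ≠ a * g) :
    ∃ M : Subgroup N, M.Normal ∧ (∀ a ∈ M, ∀ b ∈ M, a * b = b * a) ∧ Q ≤ M ∧
      (∀ n : N, ∃ m ∈ M, ∃ k : ℤ, n = m * g ^ k) ∧ g ∉ M := by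
  classical
  obtain ⟨a, haQ, hga⟩ := hgQ
  set R := zpowers g with hR
  have hRp : ∀ y ∈ R, ∃ k : ℕ, y ^ r ^ k = 1 := by
    rintro y ⟨m, rfl⟩
    obtain ⟨k, hk⟩ := hg
    refine ⟨k, ?_⟩
    show (g ^ m) ^ r ^ k = 1
    rw [← zpow_natCast, ← zpow_mul, mul_comm, zpow_mul, zpow_natCast, hk, one_zpow]
  have hRpg : IsPGroup r R := by
    rintro ⟨y, hy⟩
    obtain ⟨k, hk⟩ := hRp y hy
    exact ⟨k, Subtype.ext hk⟩
  have hQR : ∀ y ∈ Q, ∀ i : ℕ, y ^ r ^ i = 1 → y = 1 := by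
    intro y hy i hi
    obtain ⟨k, hk⟩ := hQp ⟨y, hy⟩
    exact eq_one_of_two hp.out hr.out hrp (congrArg Subtype.val hk) hi
  -- K
  have hKmem : ∀ x : N, x ∈ Q ⊔ R ↔ ∃ q ∈ Q, ∃ y ∈ R, q * y = x := by
    intro x
    constructor
    · intro hx
      rw [← SetLike.mem_coe, Subgroup.normal_mul] at hx
      obtain ⟨q, hq, y, hy, hqy⟩ := Set.mem_mul.1 hx
      exact ⟨q, hq, y, hy, hqy⟩
    · rintro ⟨q, hq, y, hy, rfl⟩
      exact mul_mem ((le_sup_left : Q ≤ Q ⊔ R) hq) ((le_sup_right : R ≤ Q ⊔ R) hy)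
  have hKself : ∀ n : N, n ∈ normalizer (R : Set N) → n ∈ Q ⊔ R := by
    intro n hn
    apply h (Q ⊔ R) ⟨g, (le_sup_right : R ≤ Q ⊔ R) (mem_zpowers g), a,
      (le_sup_left : Q ≤ Q ⊔ R) haQ, hga⟩
    rw [mem_normalizer_iff] at hn ⊢
    have key : ∀ n : N, (∀ y, y ∈ R ↔ n * y * n⁻¹ ∈ R) → ∀ x ∈ Q ⊔ R, n * x * n⁻¹ ∈ Q ⊔ R := by
      intro n hn x hx
      obtain ⟨q, hq, y, hy, rfl⟩ := (hKmem x).1 hx
      rw [hKmem]
      exact ⟨n * q * n⁻¹, hQn.conj_mem q hq n, n * y * n⁻¹, (hn y).1 hy, by group⟩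
    intro x
    constructor
    · exact key n hn x
    · intro hx
      have h1 := key n⁻¹ (by
        intro y
        rw [hn (n⁻¹ * y * n⁻¹⁻¹)]
        have e : n * (n⁻¹ * y * n⁻¹⁻¹) * n⁻¹ = y := by group
        rw [e]) _ hx
      have e : n⁻¹ * (n * x * n⁻¹) * n⁻¹⁻¹ = x := by group
      rwa [e] at h1
  -- Claim 1
  obtain ⟨S, hS⟩ := hRpg.exists_le_sylow
  have hSR : (S : Subgroup N) = R := by
    by_contra hne
    have hlt : R < S := lt_of_le_of_ne hS (Ne.symm hne)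
    obtain ⟨s, hs, hsR, hsn⟩ := H2.PGrp.exists_mem_normalizer S.isPGroup' hlt
    have h1 := hKself s hsn
    obtain ⟨q, hq, y, hy, hqy⟩ := (hKmem s).1 h1
    have h2 : q ∈ (S : Subgroup N) := by
      have : q = s * y⁻¹ := by rw [← hqy]; group
      rw [this]
      exact mul_mem hs (inv_mem (hS hy))
    obtain ⟨k, hk⟩ := S.isPGroup' ⟨q, h2⟩
    have h3 : q = 1 := hQR q hq k (congrArg Subtype.val hk)
    apply hsR
    rw [← hqy, h3, one_mul]; exact hy
  -- Claim 2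
  have hNC : normalizer ((S : Subgroup N) : Set N) ≤ centralizer ((S : Subgroup N) : Set N) := by
    intro n hn
    rw [hSR] at hn ⊢
    obtain ⟨q, hq, y, hy, hqy⟩ := (hKmem n).1 (hKself n hn)
    have hyn : y ∈ normalizer (R : Set N) := le_normalizer hy
    have hqn : q ∈ normalizer (R : Set N) := by
      have : q = n * y⁻¹ := by rw [← hqy]; group
      rw [this]; exact mul_mem hn (inv_mem hyn)
    rw [mem_centralizer_iff]
    intro z hz
    have h1 : q * z * q⁻¹ * z⁻¹ ∈ R := mul_mem ((mem_normalizer_iff.1 hqn z).1 hz) (inv_mem hz)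
    have h2 : q * z * q⁻¹ * z⁻¹ ∈ Q := by
      have : q * z * q⁻¹ * z⁻¹ = q * (z * q⁻¹ * z⁻¹) := by group
      rw [this]
      exact mul_mem hq (hQn.conj_mem _ (inv_mem hq) z)
    obtain ⟨k, hk⟩ := hRp _ h1
    have h3 := hQR _ h2 k hk
    have h4 : q * z = z * q := by
      calc q * z = (q * z * q⁻¹ * z⁻¹) * (z * q) := by group
        _ = z * q := by rw [h3, one_mul]
    have h5 : y * z = z * y := by
      obtain ⟨i, rfl⟩ := hy
      obtain ⟨j, rfl⟩ := hz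
      exact zpow_mul_comm g i j
    rw [← hqy]
    calc z * (q * y) = (q * z) * y := by rw [h4]; group
      _ = q * (y * z) := by rw [h5]; group
      _ = q * y * z := by group
  set M := (MonoidHom.transferSylow S hNC).ker with hM
  have hcompl := MonoidHom.ker_transferSylow_isComplement' S hNC
  have hMn : M.Normal := inferInstance
  have hQM : Q ≤ M := by
    intro q hq
    rw [hM, MonoidHom.mem_ker]
    obtain ⟨k, hk⟩ := hQp ⟨q, hq⟩
    have hk' : q ^ p ^ k = 1 := congrArg Subtype.val hk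
    obtain ⟨l, hl⟩ := S.isPGroup' (MonoidHom.transferSylow S hNC q)
    exact eq_one_of_two hp.out hr.out hrp (by rw [← map_pow, hk', map_one]) hl
  have hgM : g ∉ M := by
    intro h1
    have h2 : g ∈ M ⊓ (S : Subgroup N) := ⟨h1, by rw [hSR]; exact mem_zpowers g⟩
    rw [hcompl.disjoint.eq_bot, mem_bot] at h2
    apply hga; rw [h2]; simp
  refine ⟨M, hMn, ?_, hQM, ?_, hgM⟩
  · intro x hx y hy
    by_contra hxy
    exact hgM (h.normal hMn ⟨x, hx, y, hy, hxy⟩ g)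
  · intro n
    obtain ⟨⟨⟨m, hm⟩, ⟨s, hs⟩⟩, hms⟩ := hcompl.2 n
    have hs' : s ∈ R := by rw [← hSR]; exact hs
    obtain ⟨k, hk⟩ := hs'
    refine ⟨m, hm, k, ?_⟩
    rw [← hms]
    show m * s = m * g ^ k
    rw [← hk]

end

end H2.CI
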