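import Cfsg.Agent.Lib.H2.CI.SN1
import Cfsg.Agent.S0071

set_option autoImplicit false

/-! Groups in which nonabelian subgroups are self-normalizing: Sylow subgroups are abelian. -/

namespace H2.CI

open Subgroup

theorem mem_of_coprime_pows {G : Type*} [Group G] {C : Subgroup G} {g : G} {a b : ℕ}
    (h : a.Coprime b) (ha : g ^ a ∈ C) (hb : g ^ b ∈ C) : g ∈ C := by
  have h1 : (1 : ℤ) = a * Nat.gcdA a b + b * Nat.gcdB a b := by
    rw [← Nat.gcd_eq_gcd_ab, h.gcd_eq_one, Nat.cast_one]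
  have h2 : g = (g ^ a) ^ (Nat.gcdA a b) * (g ^ b) ^ (Nat.gcdB a b) := by
    conv_lhs => rw [← zpow_one g, h1, zpow_add, zpow_mul, zpow_mul, zpow_natCast, zpow_natCast]
  rw [h2]
  exact mul_mem (zpow_mem ha _) (zpow_mem hb _)

/-- a primary component outside a subgroup -/
theorem exists_primary {G : Type*} [Group G] [Finite G] (C : Subgroup G) (n : ℕ) : ∀ g : G,
    orderOf g = n → g ∉ C → ∃ r : ℕ, r.Prime ∧ r ∣ orderOf g ∧ ∃ k : ℕ, g ^ k ∉ C ∧
      ∃ j : ℕ, (g ^ k) ^ r ^ j = 1 := by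
  induction n using Nat.strong_induction_on with
  | _ n ih =>
    intro g hgn hg
    have hpos : 0 < orderOf g := orderOf_pos g
    have hn1 : orderOf g ≠ 1 := by
      intro h1
      apply hg
      rw [orderOf_eq_one_iff.1 h1]; exact one_mem C
    obtain ⟨r, hr, hrd⟩ := Nat.exists_prime_and_dvd hn1
    obtain ⟨j, m, hrm, hjm⟩ := Nat.exists_eq_pow_mul_and_not_dvd hpos.ne' r hr.ne_one
    by_cases h1 : g ^ m ∈ C
    · have hcop : (r ^ j).Coprime m := Nat.Coprime.pow_left j ((Nat.Prime.coprime_iff_not_dvd hr).2 hrm)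
      have h2 : g ^ r ^ j ∉ C := fun h3 => hg (mem_of_coprime_pows hcop h3 h1)
      have h3 : orderOf (g ^ r ^ j) = m := by
        rw [orderOf_pow' g (pow_ne_zero j hr.ne_zero), hjm]
        rw [Nat.gcd_eq_right (Dvd.intro m rfl)]
        exact Nat.mul_div_cancel_left m (pow_pos hr.pos j)
      have hj : j ≠ 0 := by
        rintro rfl
        rw [pow_zero, one_mul] at hjm
        rw [hjm] at hrd
        exact hrm hrd
      have h4 : m < n := by
        rw [← hgn, hjm]
        have hmpos : 0 < m := by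
          rcases Nat.eq_zero_or_pos m with h5 | h5
          · rw [h5, mul_zero] at hjm; omega
          · exact h5
        have : 1 < r ^ j := Nat.one_lt_pow hj hr.one_lt
        nlinarith
      obtain ⟨s, hs, hsd, k, hk, i, hi⟩ := ih m h4 _ h3 h2
      refine ⟨s, hs, hsd.trans (orderOf_pow_dvd _), r ^ j * k, ?_, i, ?_⟩
      · rw [pow_mul]; exact hk
      · rw [pow_mul g]; exact hi
    · refine ⟨r, hr, hrd, m, h1, j, ?_⟩
      rw [← pow_mul, mul_comm, ← hjm, pow_orderOf_eq_one]

section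

variable {N : Type*} [Group N] [Finite N] {p : ℕ} [hp : Fact p.Prime]

theorem lemB (h : SN N) (P : Subgroup N) [hPn : P.Normal] (hPp : IsPGroup p P) (hPi : ¬ p ∣ P.index)
    (hPc : ∀ a ∈ P, ∀ b ∈ P, a * b = b * a) (hnc : ∃ n : N, n ∉ centralizer (P : Set N)) :
    (∀ a ∈ centralizer (P : Set N), ∀ b ∈ centralizer (P : Set N), a * b = b * a) ∧
      (centralizer (P : Set N)).index.Prime ∧
      (∀ n ∉ centralizer (P : Set N), ∀ a ∈ P, n * a = a * n → ∀ m : N, m * a = a * m) := by
  classical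
  set C := centralizer (P : Set N) with hC
  have hCn : C.Normal := by rw [hC]; infer_instance
  obtain ⟨n, hn⟩ := hnc
  have hCab : ∀ a ∈ C, ∀ b ∈ C, a * b = b * a := by
    intro a ha b hb
    by_contra hab
    exact hn (h.normal hCn ⟨a, ha, b, hb, hab⟩ n)
  have hPC : P ≤ C := by
    intro x hx
    rw [hC, mem_centralizer_iff]
    intro y hy
    exact hPc y hy x hx
  -- an `r`-element outside `C`
  have hex : ∃ r : ℕ, r.Prime ∧ r ≠ p ∧ ∃ g : N, g ∉ C ∧ ∃ k : ℕ, g ^ r ^ k = 1 := by
    obtain ⟨r, hr, -, k, hk, j, hj⟩ := exists_primary C _ n rfl hn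
    refine ⟨r, hr, ?_, n ^ k, hk, j, hj⟩
    rintro rfl
    apply hk
    apply hPC
    -- p-elements lie in `P`
    have h1 : ((n ^ k : N) : N ⧸ P) = 1 := by
      have h2 : ((n ^ k : N) : N ⧸ P) ^ r ^ j = 1 := by
        have : (((n ^ k) ^ r ^ j : N) : N ⧸ P) = 1 := by rw [hj]; rfl
        exact this
      have h3 : ((n ^ k : N) : N ⧸ P) ^ P.index = 1 := by
        have := pow_card_eq_one' (x := ((n ^ k : N) : N ⧸ P))
        exact this
      have h4 : Nat.Coprime (r ^ j) P.index :=
        Nat.Coprime.pow_left _ ((Nat.Prime.coprime_iff_not_dvd hr).2 hPi)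
      have h5 : orderOf ((n ^ k : N) : N ⧸ P) ∣ 1 := by
        rw [← h4.gcd_eq_one]
        exact Nat.dvd_gcd (orderOf_dvd_of_pow_eq_one h2) (orderOf_dvd_of_pow_eq_one h3)
      exact orderOf_eq_one_iff.1 (Nat.dvd_one.1 h5)
    exact (QuotientGroup.eq_one_iff _).1 h1
  obtain ⟨r, hr, hrp, g, hgC, hgk⟩ := hex
  have := Fact.mk hr
  have hgP : ∃ a ∈ P, g * a ≠ a * g := by
    by_contra hcon
    push Not at hcon
    apply hgC
    rw [hC, mem_centralizer_iff]
    intro y hy
    exact (hcon y hy).symm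
  obtain ⟨M, hMn, hMab, hPM, hMg, hgM⟩ := lemA h P hPp hrp g hgk hgP
  have hMC : M ≤ C := by
    intro x hx
    rw [hC, mem_centralizer_iff]
    intro y hy
    exact hMab y (hPM hy) x hx
  have hcomm : ∀ x y : N, x * y * x⁻¹ * y⁻¹ ∈ C := by
    intro x y
    apply hMC
    obtain ⟨m, hm, k, rfl⟩ := hMg x
    obtain ⟨m', hm', l, rfl⟩ := hMg y
    rw [← QuotientGroup.eq_one_iff]
    have e1 : ((m * g ^ k * (m' * g ^ l) * (m * g ^ k)⁻¹ * (m' * g ^ l)⁻¹ : N) : N ⧸ M) =
        ((m : N) : N ⧸ M) * (g : N ⧸ M) ^ k * ((m' : N ⧸ M) * (g : N ⧸ M) ^ l) *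
          ((m : N ⧸ M) * (g : N ⧸ M) ^ k)⁻¹ * ((m' : N ⧸ M) * (g : N ⧸ M) ^ l)⁻¹ := rfl
    rw [e1, (QuotientGroup.eq_one_iff m).2 hm, (QuotientGroup.eq_one_iff m').2 hm', one_mul, one_mul,
      zpow_mul_comm]
    group
  have hover : ∀ X : Subgroup N, C ≤ X → X ≠ C → X = ⊤ := by
    intro X hCX hne
    obtain ⟨x, hxX, hxC⟩ := SetLike.exists_of_lt (lt_of_le_of_ne hCX (Ne.symm hne))
    have hXn : X.Normal := by
      constructor
      intro y hy m
      have e : m * y * m⁻¹ = (m * y * m⁻¹ * y⁻¹) * y := by group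
      rw [e]
      exact mul_mem (hCX (hcomm m y)) hy
    have : ∃ a ∈ P, x * a ≠ a * x := by
      by_contra hcon
      push Not at hcon
      apply hxC
      rw [hC, mem_centralizer_iff]
      intro y hy
      exact (hcon y hy).symm
    obtain ⟨a, ha, hxa⟩ := this
    rw [eq_top_iff]
    intro y _
    exact h.normal hXn ⟨x, hxX, a, hCX (hPC ha), hxa⟩ y
  refine ⟨hCab, ?_, ?_⟩
  · letI : CommGroup (N ⧸ C) :=
      { (inferInstance : Group (N ⧸ C)) with
        mul_comm := by
          intro a b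
          obtain ⟨a, rfl⟩ := QuotientGroup.mk_surjective a
          obtain ⟨b, rfl⟩ := QuotientGroup.mk_surjective b
          have h1 := (QuotientGroup.eq_one_iff _).2 (hcomm a b)
          have h2 : (a : N ⧸ C) * b * (a : N ⧸ C)⁻¹ * (b : N ⧸ C)⁻¹ = 1 := h1
          calc (a : N ⧸ C) * b = ((a : N ⧸ C) * b * (a : N ⧸ C)⁻¹ * (b : N ⧸ C)⁻¹) * (b * a) := by group
            _ = b * a := by rw [h2, one_mul] }
    have hs : IsSimpleGroup (N ⧸ C) := by
      have hnt : Nontrivial (N ⧸ C) := ⟨⟨(n : N ⧸ C), 1, fun h1 => hn ((QuotientGroup.eq_one_iff n).1 h1)⟩⟩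
      refine ⟨fun Y _ => ?_⟩
      by_cases hY : Y.comap (QuotientGroup.mk' C) = C
      · left
        rw [eq_bot_iff]
        intro y hy
        obtain ⟨y, rfl⟩ := QuotientGroup.mk_surjective y
        rw [mem_bot, QuotientGroup.eq_one_iff, ← hY]
        exact hy
      · right
        have h1 := hover (Y.comap (QuotientGroup.mk' C)) (by
          intro y hy
          rw [mem_comap]
          have : (QuotientGroup.mk' C) y = 1 := (QuotientGroup.eq_one_iff y).2 hy
          rw [this]; exact one_mem Y) hY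
        rw [eq_top_iff]
        intro y _
        obtain ⟨y, rfl⟩ := QuotientGroup.mk_surjective y
        have : y ∈ Y.comap (QuotientGroup.mk' C) := by rw [h1]; trivial
        exact this
    exact IsSimpleGroup.prime_card
  · intro x hx a ha hxa m
    have h1 : centralizer ({a} : Set N) = ⊤ := by
      apply hover
      · intro y hy
        rw [mem_centralizer_singleton_iff]
        exact (mem_centralizer_iff.1 hy a ha).symm
      · intro h2
        apply hx
        rw [← h2, mem_centralizer_singleton_iff]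
        exact hxa
    have h2 : m ∈ centralizer ({a} : Set N) := by rw [h1]; trivial
    exact mem_centralizer_singleton_iff.1 h2

end

end H2.CI
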