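import Cfsg.Agent.Lib.H2.CI.SN2
import Cfsg.Agent.Lib.H2.AbSylow
import Cfsg.Agent.Lib.H2.Residual
import Cfsg.Agent.S0075

set_option autoImplicit false

/-! Simple groups in which nonabelian subgroups are self-normalizing: Sylow subgroups are abelian. -/

namespace H2.CI

open Subgroup
open scoped Pointwise

universe u

variable {G : Type u} [Group G] [Finite G] {p : ℕ} [hp : Fact p.Prime]

/-- `P` does not centralize its normalizer's `p'`-elements -/
def Bad (p : ℕ) (Q : Subgroup G) : Prop :=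
  IsPGroup p Q ∧ ∃ g ∈ normalizer (Q : Set G), Nat.Coprime (orderOf g) p ∧ g ∉ centralizer (Q : Set G)

theorem pgroup_comm [IsSimpleGroup G] (h : IsPGroup p G) : ∀ a b : G, a * b = b * a := by
  have h1 : Group.IsNilpotent G := h.isNilpotent
  have h2 : Group.IsSolvable G := inferInstance
  exact IsSimpleGroup.comm_iff_isSolvable.2 h2

theorem bad_step (h : SN G) {Q : Subgroup G} (hQ : Bad p Q)
    (hS : ∀ S : Sylow p G, ∃ a ∈ (S : Subgroup G), ∃ b ∈ (S : Subgroup G), a * b ≠ b * a) :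
    ∃ Q' : Subgroup G, Bad p Q' ∧ Q < Q' := by
  classical
  obtain ⟨hQp, g, hgN, hgp, hgC⟩ := hQ
  -- Q is abelian
  have hQab : ∀ a ∈ Q, ∀ b ∈ Q, a * b = b * a := by
    intro a ha b hb
    by_contra hab
    have hgQ := h Q ⟨a, ha, b, hb, hab⟩ g hgN
    obtain ⟨k, hk⟩ := hQp ⟨g, hgQ⟩
    have hk' : g ^ p ^ k = 1 := congrArg Subtype.val hk
    have h1 : orderOf g ∣ 1 := by
      have h2 : Nat.Coprime (orderOf g) (p ^ k) := Nat.Coprime.pow_right k hgp
      rw [← h2.gcd_eq_one]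
      exact Nat.dvd_gcd dvd_rfl (orderOf_dvd_of_pow_eq_one hk')
    apply hgC
    rw [orderOf_eq_one_iff.1 (Nat.dvd_one.1 h1)]
    exact one_mem _
  -- primary component
  obtain ⟨r, hr, hrg, k, hkC, j, hj⟩ := exists_primary _ _ g rfl hgC
  have hrp : r ≠ p := by
    rintro rfl
    have : Nat.Coprime r r := Nat.Coprime.coprime_dvd_left hrg hgp
    rw [Nat.coprime_self] at this
    exact hr.ne_one this
  have := Fact.mk hr
  set N := normalizer (Q : Set G) with hN
  have hQN : Q ≤ N := le_normalizer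
  let Q' : Subgroup N := Q.subgroupOf N
  have hQ'n : Q'.Normal := Subgroup.normal_in_normalizer
  have hQ'p : IsPGroup p Q' := by
    rintro ⟨x, hx⟩
    obtain ⟨k, hk⟩ := hQp ⟨x, hx⟩
    have hk' : (x : G) ^ p ^ k = 1 := congrArg Subtype.val hk
    exact ⟨k, Subtype.ext (Subtype.ext hk')⟩
  let g' : N := ⟨g ^ k, pow_mem hgN k⟩
  have hg' : ∃ a ∈ Q', g' * a ≠ a * g' := by
    by_contra hcon
    push Not at hcon
    apply hkC
    rw [mem_centralizer_iff]
    intro y hy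
    exact (congrArg Subtype.val (hcon ⟨y, hQN hy⟩ hy)).symm
  obtain ⟨M, hMn, hMab, hQM, hMg, hgM⟩ := lemA (h.sub N) Q' hQ'p hrp g' ⟨j, Subtype.ext hj⟩ hg'
  -- the p-part of M
  let T : Subgroup N :=
    { carrier := {y | y ∈ M ∧ ∃ k : ℕ, y ^ p ^ k = 1}
      mul_mem' := by
        rintro a b ⟨ha, i, hi⟩ ⟨hb, l, hl⟩
        refine ⟨mul_mem ha hb, i + l, ?_⟩
        have hc : Commute a b := hMab a ha b hb
        rw [hc.mul_pow, pow_add, pow_mul, hi, one_pow, one_mul, mul_comm (p ^ i), pow_mul, hl, one_pow]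
      one_mem' := ⟨one_mem M, 0, by simp⟩
      inv_mem' := by
        rintro a ⟨ha, i, hi⟩
        exact ⟨inv_mem ha, i, by rw [inv_pow, hi, inv_one]⟩ }
  have hTn : T.Normal := by
    constructor
    rintro y ⟨hy, i, hi⟩ m
    exact ⟨hMn.conj_mem y hy m, i, by rw [conj_pow, hi]; simp⟩
  -- all p-elements of N are in T
  have hTall : ∀ y : N, (∃ i : ℕ, y ^ p ^ i = 1) → y ∈ T := by
    rintro y ⟨i, hi⟩
    refine ⟨?_, i, hi⟩
    obtain ⟨m, hm, l, hml⟩ := hMg y
    rw [← QuotientGroup.eq_one_iff]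
    have e1 : (y : N ⧸ M) = (g' : N ⧸ M) ^ l := by
      rw [hml]
      have : ((m * g' ^ l : N) : N ⧸ M) = (m : N ⧸ M) * (g' : N ⧸ M) ^ l := rfl
      rw [this, (QuotientGroup.eq_one_iff m).2 hm, one_mul]
    have h1 : (y : N ⧸ M) ^ p ^ i = 1 := by
      have : ((y ^ p ^ i : N) : N ⧸ M) = 1 := by rw [hi]; rfl
      exact this
    have h2 : (y : N ⧸ M) ^ r ^ j = 1 := by
      rw [e1, ← zpow_natCast, ← zpow_mul, mul_comm, zpow_mul, zpow_natCast]
      have h3 : (g' : N ⧸ M) ^ r ^ j = 1 := by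
        have h4 : g' ^ r ^ j = 1 := Subtype.ext hj
        have : ((g' ^ r ^ j : N) : N ⧸ M) = 1 := by rw [h4]; rfl
        exact this
      rw [h3, one_zpow]
    exact eq_one_of_two hp.out hr hrp h1 h2
  set Q₁ : Subgroup G := T.map N.subtype with hQ₁
  have hQQ₁ : Q ≤ Q₁ := by
    intro x hx
    refine ⟨⟨x, hQN hx⟩, hTall _ ?_, rfl⟩
    obtain ⟨i, hi⟩ := hQp ⟨x, hx⟩
    have hi' : x ^ p ^ i = 1 := congrArg Subtype.val hi
    exact ⟨i, Subtype.ext hi'⟩
  have hQ₁p : IsPGroup p Q₁ := by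
    rintro ⟨x, y, ⟨-, i, hi⟩, rfl⟩
    have hi' : (y : G) ^ p ^ i = 1 := congrArg Subtype.val hi
    exact ⟨i, Subtype.ext hi'⟩
  have hne : Q ≠ Q₁ := by
    intro heq
    obtain ⟨S, hS'⟩ := hQp.exists_le_sylow
    have hlt : Q < S := by
      refine lt_of_le_of_ne hS' ?_
      intro h1
      obtain ⟨a, ha, b, hb, hab⟩ := hS S
      rw [← h1] at ha hb
      exact hab (hQab a ha b hb)
    obtain ⟨s, hs, hsQ, hsn⟩ := H2.PGrp.exists_mem_normalizer S.isPGroup' hlt
    apply hsQ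
    rw [heq]
    refine ⟨⟨s, hsn⟩, hTall _ ?_, rfl⟩
    obtain ⟨i, hi⟩ := S.isPGroup' ⟨s, hs⟩
    have hi' : s ^ p ^ i = 1 := congrArg Subtype.val hi
    exact ⟨i, Subtype.ext hi'⟩
  refine ⟨Q₁, ⟨hQ₁p, g ^ k, ?_, ?_, ?_⟩, lt_of_le_of_ne hQQ₁ hne⟩
  · rw [mem_normalizer_iff]
    intro x
    constructor
    · rintro ⟨y, hy, rfl⟩
      exact ⟨g' * y * g'⁻¹, hTn.conj_mem y hy g', rfl⟩
    · rintro ⟨y, hy, hyx⟩
      refine ⟨g'⁻¹ * y * g', ?_, ?_⟩
      · have := hTn.conj_mem y hy g'⁻¹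
        simpa using this
      · show (g ^ k)⁻¹ * (N.subtype y) * g ^ k = x
        rw [hyx]; group
  · exact Nat.Coprime.coprime_dvd_left (orderOf_pow_dvd k) hgp
  · intro h1
    apply hkC
    rw [mem_centralizer_iff] at h1 ⊢
    intro y hy
    exact h1 y (hQQ₁ hy)

theorem no_bad (h : SN G)
    (hS : ∀ S : Sylow p G, ∃ a ∈ (S : Subgroup G), ∃ b ∈ (S : Subgroup G), a * b ≠ b * a) (n : ℕ) :
    ∀ Q : Subgroup G, Nat.card G - Nat.card Q = n → ¬ Bad p Q := by
  induction n using Nat.strong_induction_on with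
  | _ n ih =>
    intro Q hQn hQ
    obtain ⟨Q', hQ', hlt⟩ := bad_step h hQ hS
    have h1 : Nat.card Q < Nat.card Q' := by
      apply lt_of_le_of_ne (Subgroup.card_le_of_le hlt.le)
      intro h2
      exact hlt.ne (Subgroup.eq_of_le_of_card_ge hlt.le h2.ge)
    have h2 : Nat.card Q' ≤ Nat.card G := Subgroup.card_le_card_group Q'
    exact ih (Nat.card G - Nat.card Q') (by omega) Q' rfl hQ'

/-- the Sylow subgroups are abelian -/
theorem syl_comm [IsSimpleGroup G] (hna : ¬ IsMulCommutative G) (h : SN G) (P : Sylow p G) :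
    ∀ a ∈ (P : Subgroup G), ∀ b ∈ (P : Subgroup G), a * b = b * a := by
  by_contra hcon
  push Not at hcon
  obtain ⟨a, ha, b, hb, hab⟩ := hcon
  have hS : ∀ S : Sylow p G, ∃ a ∈ (S : Subgroup G), ∃ b ∈ (S : Subgroup G), a * b ≠ b * a := by
    intro S
    obtain ⟨g, hg⟩ := MulAction.exists_smul_eq G P S
    have key : ∀ x ∈ (P : Subgroup G), g * x * g⁻¹ ∈ (S : Subgroup G) := by
      intro x hx
      rw [← hg]
      have : MulAut.conj g x ∈ MulAut.conj g • (P : Subgroup G) :=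
        Subgroup.smul_mem_pointwise_smul x (MulAut.conj g) _ hx
      exact this
    refine ⟨_, key a ha, _, key b hb, ?_⟩
    intro h1
    apply hab
    have e1 : g * a * g⁻¹ * (g * b * g⁻¹) = g * (a * b) * g⁻¹ := by group
    have e2 : g * b * g⁻¹ * (g * a * g⁻¹) = g * (b * a) * g⁻¹ := by group
    rw [e1, e2] at h1
    exact mul_left_cancel (mul_right_cancel h1)
  have h1 : ∃ N : Subgroup G, N.Normal ∧ N.IsComplement' (P : Subgroup G) := by
    rw [Cfsg.Agent.S0071.result P]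
    intro Q hQ g hg hgp
    by_contra hgC
    exact no_bad h hS _ Q rfl ⟨P.isPGroup'.to_le hQ, g, hg, hgp, hgC⟩
  obtain ⟨N, hN, hNP⟩ := h1
  rcases hN.eq_bot_or_eq_top with h2 | h2
  · rw [h2] at hNP
    have h3 : (P : Subgroup G) = ⊤ := Subgroup.isComplement'_bot_left.1 hNP
    have h4 : IsPGroup p G := by
      intro x
      obtain ⟨k, hk⟩ := P.isPGroup' ⟨x, by rw [h3]; trivial⟩
      exact ⟨k, congrArg Subtype.val hk⟩
    exact hab (pgroup_comm h4 a b)
  · rw [h2] at hNP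
    have h3 : (P : Subgroup G) = ⊥ := Subgroup.isComplement'_top_left.1 hNP
    rw [h3, mem_bot] at ha hb
    apply hab; rw [ha, hb]

/-- `C_P(N(P)) = 1` -/
theorem inf_cent_eq_bot [IsSimpleGroup G] (hna : ¬ IsMulCommutative G) (h : SN G) (P : Sylow p G) :
    (P : Subgroup G) ⊓ centralizer (normalizer ((P : Subgroup G) : Set G) : Set G) = ⊥ := by
  have hab := syl_comm hna h P
  have hPc : IsMulCommutative P := ⟨⟨fun a b => Subtype.ext (hab a a.2 b b.2)⟩⟩
  have h1 := Cfsg.Agent.S0075.result P hPc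
  have h2 := (H2.AbSylow.abelian_sylow_decomp P hPc).1
  have h3 : Cfsg.pResidual p G = ⊤ := by
    have hn : (Cfsg.pResidual p G).Normal := inferInstance
    rcases hn.eq_bot_or_eq_top with h4 | h4
    · exfalso
      apply hna
      have h5 : IsPGroup p (G ⧸ Cfsg.pResidual p G) := H2.Residual.isPGroup_quotient_residual
      have h6 : IsPGroup p G := by
        intro x
        obtain ⟨k, hk⟩ := h5 (x : G ⧸ Cfsg.pResidual p G)
        refine ⟨k, ?_⟩
        have h7 : x ^ p ^ k ∈ Cfsg.pResidual p G := (QuotientGroup.eq_one_iff _).1 hk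
        rw [h4, mem_bot] at h7
        exact h7
      exact ⟨⟨pgroup_comm h6⟩⟩
    · exact h4
  rw [h3, inf_top_eq] at h1
  have h1' : (P : Subgroup G) = ⁅(P : Subgroup G), normalizer ((P : Subgroup G) : Set G)⁆ := h1
  rw [← h1'] at h2
  rw [eq_bot_iff, ← h2]
  exact le_inf le_rfl inf_le_left

end H2.CI
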