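import Cfsg.Agent.Lib.H2.CI.SN3
import Cfsg.Agent.Lib.H2.CycP

set_option autoImplicit false

/-! Simple groups in which nonabelian subgroups are self-normalizing: centralizers are abelian. -/

namespace H2.CI

open Subgroup
open scoped Pointwise

universe u

variable {G : Type u} [Group G] [Finite G] {p : ℕ} [hp : Fact p.Prime]

theorem normalizer_facts [IsSimpleGroup G] (hna : ¬ IsMulCommutative G) (h : SN G) (P : Sylow p G)
    (hP1 : (P : Subgroup G) ≠ ⊥) :
    (∃ r : ℕ, r.Prime ∧ Nat.card (normalizer ((P : Subgroup G) : Set G)) =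
      r * Nat.card (centralizer ((P : Subgroup G) : Set G))) ∧
    (∀ n ∈ normalizer ((P : Subgroup G) : Set G), ∀ a ∈ (P : Subgroup G), a ≠ 1 → n * a = a * n →
      n ∈ centralizer ((P : Subgroup G) : Set G)) := by
  classical
  have hab := syl_comm hna h P
  have hbot := inf_cent_eq_bot hna h P
  set N := normalizer ((P : Subgroup G) : Set G) with hN
  have hPN : (P : Subgroup G) ≤ N := le_normalizer
  let P' : Subgroup N := (P : Subgroup G).subgroupOf N
  have hP'n : P'.Normal := Subgroup.normal_in_normalizer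
  have hP'p : IsPGroup p P' := by
    rintro ⟨x, hx⟩
    obtain ⟨k, hk⟩ := P.isPGroup' ⟨x, hx⟩
    have hk' : (x : G) ^ p ^ k = 1 := congrArg Subtype.val hk
    exact ⟨k, Subtype.ext (Subtype.ext hk')⟩
  have hP'i : ¬ p ∣ P'.index := by
    have h1 : P'.index ∣ (P : Subgroup G).index := by
      rw [show P'.index = (P : Subgroup G).relIndex N from rfl]
      exact Subgroup.relIndex_dvd_index_of_le hPN
    intro h2
    exact P.not_dvd_index (h2.trans h1)
  have hP'c : ∀ a ∈ P', ∀ b ∈ P', a * b = b * a := fun a ha b hb => Subtype.ext (hab a ha b hb)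
  have hcen : ∀ n : N, n ∈ centralizer (P' : Set N) ↔ (n : G) ∈ centralizer ((P : Subgroup G) : Set G) := by
    intro n
    rw [mem_centralizer_iff, mem_centralizer_iff]
    constructor
    · intro h1 y hy
      exact congrArg Subtype.val (h1 ⟨y, hPN hy⟩ hy)
    · intro h1 y hy
      exact Subtype.ext (h1 y hy)
  have hnc : ∃ n : N, n ∉ centralizer (P' : Set N) := by
    by_contra hcon
    push Not at hcon
    apply hP1
    rw [eq_bot_iff, ← hbot]
    intro x hx
    refine mem_inf.2 ⟨hx, ?_⟩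
    rw [mem_centralizer_iff]
    intro n hn
    have h1 := (hcen ⟨n, hn⟩).1 (hcon ⟨n, hn⟩)
    exact (mem_centralizer_iff.1 h1 x hx).symm
  obtain ⟨-, hidx, hfpf⟩ := lemB (h.sub N) P' hP'p hP'i hP'c hnc
  constructor
  · refine ⟨_, hidx, ?_⟩
    rw [← Subgroup.index_mul_card (centralizer (P' : Set N))]
    congr 1
    apply Nat.card_congr
    have hCN : centralizer ((P : Subgroup G) : Set G) ≤ N := by
      intro x hx
      rw [hN, mem_normalizer_iff]
      have key : ∀ x ∈ centralizer ((P : Subgroup G) : Set G), ∀ y ∈ (P : Subgroup G), x * y * x⁻¹ = y := by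
        intro x hx y hy
        rw [← mem_centralizer_iff.1 hx y hy]; group
      intro y
      constructor
      · intro hy
        have := key x hx y hy
        show x * y * x⁻¹ ∈ (P : Subgroup G)
        rw [this]; exact hy
      · intro hy
        have h1 := key x⁻¹ (inv_mem hx) _ hy
        have e : x⁻¹ * (x * y * x⁻¹) * x⁻¹⁻¹ = y := by group
        rw [e] at h1
        show y ∈ (P : Subgroup G)
        rw [h1]; exact hy
    exact
      { toFun := fun y => ⟨((y : N) : G), (hcen y).1 y.2⟩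
        invFun := fun y => ⟨⟨y, hCN y.2⟩, (hcen _).2 y.2⟩
        left_inv := fun y => rfl
        right_inv := fun y => rfl }
  · intro n hn a ha ha1 hna'
    by_contra hnC
    apply ha1
    have h1 := hfpf ⟨n, hn⟩ (fun h2 => hnC ((hcen _).1 h2)) ⟨a, hPN ha⟩ ha (Subtype.ext hna')
    have h2 : a ∈ (P : Subgroup G) ⊓ centralizer (N : Set G) := by
      refine mem_inf.2 ⟨ha, ?_⟩
      rw [mem_centralizer_iff]
      intro m hm
      exact congrArg Subtype.val (h1 ⟨m, hm⟩)
    rw [hbot, mem_bot] at h2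
    exact h2

theorem cent_comm_prime [IsSimpleGroup G] (hna : ¬ IsMulCommutative G) (h : SN G) {x : G}
    (hx : orderOf x = p) : ∀ a ∈ centralizer ({x} : Set G), ∀ b ∈ centralizer ({x} : Set G),
      a * b = b * a := by
  classical
  by_contra hcon
  push Not at hcon
  obtain ⟨a, ha, b, hb, hab⟩ := hcon
  set D := centralizer ({x} : Set G) with hD
  have hx1 : x ≠ 1 := by
    rintro rfl
    rw [orderOf_one] at hx
    exact hp.out.ne_one hx.symm
  -- Sylow subgroup containing `x`
  have hxp : IsPGroup p (zpowers x) := IsPGroup.of_card (n := 1) (by rw [Nat.card_zpowers, hx, pow_one])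
  obtain ⟨P, hxP⟩ := hxp.exists_le_sylow
  have hxP' : x ∈ (P : Subgroup G) := hxP (mem_zpowers x)
  have hPab := syl_comm hna h P
  have hP1 : (P : Subgroup G) ≠ ⊥ := fun h1 => hx1 (by rw [h1, mem_bot] at hxP'; exact hxP')
  obtain ⟨-, hfpf⟩ := normalizer_facts hna h P hP1
  have hPD : (P : Subgroup G) ≤ D := by
    intro y hy
    rw [hD, mem_centralizer_singleton_iff]
    exact hPab y hy x hxP'
  have hDself : ∀ n ∈ normalizer (D : Set G), n ∈ D := h D ⟨a, ha, b, hb, hab⟩
  -- the Sylow subgroup of `D`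
  let PD : Sylow p D := P.subtype hPD
  have hPDmem : ∀ y : D, y ∈ (PD : Subgroup D) ↔ (y : G) ∈ (P : Subgroup G) := fun y => Iff.rfl
  have hNC : normalizer ((PD : Subgroup D) : Set D) ≤ centralizer ((PD : Subgroup D) : Set D) := by
    intro n hn
    have h1 : (n : G) ∈ normalizer ((P : Subgroup G) : Set G) := by
      rw [mem_normalizer_iff] at hn ⊢
      intro y
      constructor
      · intro hy
        exact (hn ⟨y, hPD hy⟩).1 hy
      · intro hy
        have hyD : y ∈ D := by
          have := mul_mem (mul_mem (inv_mem n.2) (hPD hy)) n.2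
          have e : (n : G)⁻¹ * (n * y * (n : G)⁻¹) * n = y := by group
          rwa [e] at this
        exact (hn ⟨y, hyD⟩).2 hy
    have h2 := hfpf n h1 x hxP' hx1 (mem_centralizer_singleton_iff.1 n.2)
    rw [mem_centralizer_iff] at h2 ⊢
    intro y hy
    exact Subtype.ext (h2 y hy)
  set U := (MonoidHom.transferSylow PD hNC).ker with hU
  have hcompl := MonoidHom.ker_transferSylow_isComplement' PD hNC
  have hUn : U.Normal := inferInstance
  have hxU : (⟨x, hPD hxP'⟩ : D) ∉ U := by
    intro h1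
    have h2 : (⟨x, hPD hxP'⟩ : D) ∈ U ⊓ (PD : Subgroup D) := ⟨h1, hxP'⟩
    rw [hcompl.disjoint.eq_bot, mem_bot] at h2
    exact hx1 (congrArg Subtype.val h2)
  have hUab : ∀ u ∈ U, ∀ v ∈ U, u * v = v * u := by
    intro u hu v hv
    by_contra huv
    exact hxU ((h.sub D).normal hUn ⟨u, hu, v, hv, huv⟩ _)
  -- every element of D is `u * y`
  have hdec : ∀ d : D, ∃ u ∈ U, ∃ y : D, (y : G) ∈ (P : Subgroup G) ∧ d = u * y := by
    intro d
    obtain ⟨⟨⟨u, hu⟩, ⟨y, hy⟩⟩, huy⟩ := hcompl.2 d
    exact ⟨u, hu, y, hy, huy.symm⟩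
  -- some `y ∈ P` does not centralize `U`
  obtain ⟨y, hyP, u, huU, hyu⟩ : ∃ y : D, (y : G) ∈ (P : Subgroup G) ∧ ∃ u ∈ U, y * u ≠ u * y := by
    by_contra hcon
    push Not at hcon
    apply hab
    obtain ⟨u, hu, y, hy, h1⟩ := hdec ⟨a, ha⟩
    obtain ⟨v, hv, z, hz, h2⟩ := hdec ⟨b, hb⟩
    have h3 : u * y * (v * z) = v * z * (u * y) := by
      have e1 := hcon y hy v hv
      have e2 := hcon z hz u hu
      have e3 := hUab u hu v hv
      have e4 : y * z = z * y := Subtype.ext (hPab y hy z hz)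
      calc u * y * (v * z) = u * (y * v) * z := by group
        _ = (u * v) * (y * z) := by rw [e1]; group
        _ = (v * u) * (z * y) := by rw [e3, e4]
        _ = v * (u * z) * y := by group
        _ = v * z * (u * y) := by rw [← e2]; group
    rw [← h1, ← h2] at h3
    exact congrArg Subtype.val h3
  -- `X = U⟨y⟩` is everything
  have hcommU : ∀ c d : D, c * d * c⁻¹ * d⁻¹ ∈ U := by
    intro c d
    obtain ⟨u, hu, y, hy, rfl⟩ := hdec c
    obtain ⟨v, hv, z, hz, rfl⟩ := hdec d
    rw [← QuotientGroup.eq_one_iff]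
    have e1 : ((u * y * (v * z) * (u * y)⁻¹ * (v * z)⁻¹ : D) : D ⧸ U) =
        ((u : D) : D ⧸ U) * (y : D ⧸ U) * ((v : D ⧸ U) * (z : D ⧸ U)) *
          ((u : D ⧸ U) * (y : D ⧸ U))⁻¹ * ((v : D ⧸ U) * (z : D ⧸ U))⁻¹ := rfl
    have e2 : (y : D ⧸ U) * (z : D ⧸ U) = (z : D ⧸ U) * (y : D ⧸ U) := by
      have : y * z = z * y := Subtype.ext (hPab y hy z hz)
      exact congrArg (QuotientGroup.mk (s := U)) this
    rw [e1, (QuotientGroup.eq_one_iff u).2 hu, (QuotientGroup.eq_one_iff v).2 hv, one_mul, one_mul, e2]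
    group
  set X : Subgroup D := U ⊔ zpowers y with hX
  have hXn : X.Normal := by
    constructor
    intro z hz m
    have e : m * z * m⁻¹ = (m * z * m⁻¹ * z⁻¹) * z := by group
    rw [e]
    exact mul_mem ((le_sup_left : U ≤ X) (hcommU m z)) hz
  have hXtop : ∀ d : D, d ∈ X := (h.sub D).normal hXn
    ⟨y, (le_sup_right : zpowers y ≤ X) (mem_zpowers y), u, (le_sup_left : U ≤ X) huU, hyu⟩
  -- `P = ⟨y⟩`
  have hPy : ∀ z ∈ (P : Subgroup G), z ∈ zpowers (y : G) := by
    intro z hz
    have h1 : (⟨z, hPD hz⟩ : D) ∈ U ⊔ zpowers y := hXtop _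
    rw [← SetLike.mem_coe, Subgroup.normal_mul] at h1
    obtain ⟨v, hv, w, hw, hvw⟩ := Set.mem_mul.1 h1
    obtain ⟨k, rfl⟩ := hw
    simp only at hvw
    have h2 : v ∈ U ⊓ (PD : Subgroup D) := by
      refine mem_inf.2 ⟨hv, ?_⟩
      have e : v = ⟨z, hPD hz⟩ * (y ^ k)⁻¹ := by rw [← hvw]; group
      rw [e]
      exact mul_mem hz (inv_mem (zpow_mem hyP k))
    rw [hcompl.disjoint.eq_bot, mem_bot] at h2
    rw [h2, one_mul] at hvw
    exact ⟨k, congrArg Subtype.val hvw⟩
  have hcyc : IsCyclic (P : Subgroup G) := ⟨⟨⟨y, hyP⟩, fun z => by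
    obtain ⟨k, hk⟩ := hPy z z.2
    exact ⟨k, Subtype.ext hk⟩⟩⟩
  -- `N(P)` centralizes `x`
  have hbot := inf_cent_eq_bot hna h P
  apply hx1
  have : x ∈ (P : Subgroup G) ⊓ centralizer (normalizer ((P : Subgroup G) : Set G) : Set G) := by
    refine mem_inf.2 ⟨hxP', ?_⟩
    rw [mem_centralizer_iff]
    intro n hn
    have hnx : n * x * n⁻¹ ∈ (P : Subgroup G) := (mem_normalizer_iff.1 hn x).1 hxP'
    have hord : orderOf (⟨n * x * n⁻¹, hnx⟩ : (P : Subgroup G)) = orderOf (⟨x, hxP'⟩ : (P : Subgroup G)) := by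
      rw [← Subgroup.orderOf_coe, ← Subgroup.orderOf_coe]
      have : n * x * n⁻¹ = MulAut.conj n x := by simp
      show orderOf (n * x * n⁻¹) = orderOf x
      rw [this, MulEquiv.orderOf_eq]
    have hz := H2.CycP.zpowers_eq_of_orderOf_eq hcyc hord
    have h1 : (⟨x, hxP'⟩ : (P : Subgroup G)) ∈ zpowers (⟨n * x * n⁻¹, hnx⟩ : (P : Subgroup G)) := by
      rw [hz]; exact mem_zpowers _
    have h2 : (⟨n * x * n⁻¹, hnx⟩ : (P : Subgroup G)) ∈ zpowers (⟨x, hxP'⟩ : (P : Subgroup G)) := by
      rw [← hz]; exact mem_zpowers _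
    obtain ⟨k, hk⟩ := h1
    obtain ⟨l, hl⟩ := h2
    have hk' : (n * x * n⁻¹) ^ k = x := congrArg Subtype.val hk
    have hl' : x ^ l = n * x * n⁻¹ := congrArg Subtype.val hl
    have hnD : n ∈ normalizer (D : Set G) := by
      rw [mem_normalizer_iff]
      intro d
      have key : d ∈ D ↔ Commute (n * d * n⁻¹) (n * x * n⁻¹) := by
        show d ∈ centralizer ({x} : Set G) ↔ _
        rw [mem_centralizer_singleton_iff]
        constructor
        · intro h3
          show n * d * n⁻¹ * (n * x * n⁻¹) = n * x * n⁻¹ * (n * d * n⁻¹)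
          have : n * d * n⁻¹ * (n * x * n⁻¹) = n * (d * x) * n⁻¹ := by group
          rw [this, h3]; group
        · intro h3
          have h4 : n * d * n⁻¹ * (n * x * n⁻¹) = n * x * n⁻¹ * (n * d * n⁻¹) := h3
          have e1 : n * d * n⁻¹ * (n * x * n⁻¹) = n * (d * x) * n⁻¹ := by group
          have e2 : n * x * n⁻¹ * (n * d * n⁻¹) = n * (x * d) * n⁻¹ := by group
          rw [e1, e2] at h4
          exact mul_left_cancel (mul_right_cancel h4)
      rw [key]
      show _ ↔ n * d * n⁻¹ ∈ centralizer ({x} : Set G)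
      rw [mem_centralizer_singleton_iff]
      constructor
      · intro h3
        have h4 := h3.zpow_right k
        rw [hk'] at h4
        exact h4
      · intro h3
        have h3' : Commute (n * d * n⁻¹) x := h3
        have h4 := h3'.zpow_right l
        rw [hl'] at h4
        exact h4
    have h3 := hDself n hnD
    exact mem_centralizer_singleton_iff.1 h3
  rw [hbot, mem_bot] at this
  exact this

end H2.CI
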